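import Mathlib
import Cfsg.Agent.H451.Tor.Edge
import Cfsg.Agent.H451.Tor.Rows
import Cfsg.Agent.KFacts.RgdFilt
import Cfsg.Agent.Nodes.RGDChev
import Cfsg.Agent.Nodes.RGDTwE6
import Cfsg.Agent.Nodes.RGDTypeA

/-!
# Rows of S3235 in their own characteristic: `PSL_n` (`n ≥ 3`), `F₄`, `E₆`, `E₇`, `E₈`, `²E₆`
-/

set_option autoImplicit false

namespace Cfsg.Agent.H451.Tor

open Cfsg Cfsg.Lie CoxeterSystem
open Cfsg.Agent.H103.Tor (Row Pr)
open Cfsg.Agent.Nodes.BNOf Cfsg.Agent.Nodes.Bruhat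

universe u w

theorem bond_F4 : ∀ i : Fin 4, ∃ j : Fin 4, CoxeterMatrix.F₄ i j = 3 := by
  intro i
  fin_cases i
  · exact ⟨1, by decide⟩
  · exact ⟨0, by decide⟩
  · exact ⟨3, by decide⟩
  · exact ⟨2, by decide⟩

theorem bond_E6 : ∀ i : Fin 6, ∃ j : Fin 6, CoxeterMatrix.E₆ i j = 3 := by
  intro i
  fin_cases i
  · exact ⟨2, by decide⟩
  · exact ⟨3, by decide⟩
  · exact ⟨0, by decide⟩
  · exact ⟨1, by decide⟩
  · exact ⟨5, by decide⟩
  · exact ⟨4, by decide⟩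

theorem bond_E7 : ∀ i : Fin 7, ∃ j : Fin 7, CoxeterMatrix.E₇ i j = 3 := by
  intro i
  fin_cases i
  · exact ⟨2, by decide⟩
  · exact ⟨3, by decide⟩
  · exact ⟨0, by decide⟩
  · exact ⟨1, by decide⟩
  · exact ⟨5, by decide⟩
  · exact ⟨4, by decide⟩
  · exact ⟨5, by decide⟩

theorem bond_E8 : ∀ i : Fin 8, ∃ j : Fin 8, CoxeterMatrix.E₈ i j = 3 := by
  intro i
  fin_cases i
  · exact ⟨2, by decide⟩
  · exact ⟨3, by decide⟩
  · exact ⟨0, by decide⟩
  · exact ⟨1, by decide⟩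
  · exact ⟨5, by decide⟩
  · exact ⟨4, by decide⟩
  · exact ⟨5, by decide⟩
  · exact ⟨6, by decide⟩

open Cfsg.Agent.LieRecognition.BNCox Cfsg.Agent.LieRecognition.CoxClass in
theorem bond_A {n : ℕ} (hn : 2 ≤ n) : ∀ i : Fin n, ∃ j : Fin n, cA n i j = 3 := by
  intro i
  by_cases h : (i : ℕ) + 1 < n
  · refine ⟨⟨i + 1, h⟩, ?_⟩
    rw [cA_apply]
    unfold mA
    simp
  · refine ⟨⟨i - 1, by omega⟩, ?_⟩
    rw [cA_apply]
    unfold mA
    have hi := i.2
    have h1 : 1 ≤ (i : ℕ) := by omega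
    simp only
    split_ifs <;> omega

theorem row_chev {p : ℕ} (hp : p.Prime) (hp5 : 5 ≤ p) {D : ChevalleyDatum} {l : ℕ} {M : CoxeterMatrix (Fin l)}
    (hD : Nodes.RGDChev.IsType D l M) [Nonempty (Fin l)] (hE : ∀ i, ∃ j, M i j = 3) {K : Type w} [Group K] [Finite K]
    [IsSimpleGroup K]
    (h : ∃ (F : Type) (_ : Field F) (_ : Fintype F) (_ : CharP F p), Nonempty (K ≃* D.group F)) : Row p K := by
  obtain ⟨F, _, _, _, ⟨e⟩⟩ := h
  have hpf := Fact.mk hp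
  have hfin : Finite ↥(D.group F) := Finite.of_equiv K e.toEquiv
  have hsim : IsSimpleGroup ↥(D.group F) := e.symm.isSimpleGroup
  have hW := Nodes.RGDChev.finite_W hD M.toCoxeterSystem
  refine row_of_pc hp hp5 fun a ha hPC => ?_
  have h1 : e a = 1 := Edge.eq_one (Nodes.RGDChev.rgd (K := F) hD M.toCoxeterSystem p) (by omega)
    (KFacts.RgdFilt.GG_eq_top (Nodes.RGDChev.G1_eq_top hD _)) hE (by rw [← map_pow, ha, map_one]) (hPC.of_equiv e)
  exact e.injective (by rw [h1, map_one])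

/-- **F₄ in its own characteristic.** -/
theorem row_f4Own {p : ℕ} (hp : p.Prime) (hp5 : 5 ≤ p) {K : Type w} [Group K] [Finite K] [IsSimpleGroup K]
    (h : ∃ (F : Type) (_ : Field F) (_ : Fintype F) (_ : CharP F p), Nonempty (K ≃* Cfsg.Lie.chevF4.group F)) :
    Row p K :=
  row_chev hp hp5 (l := 4) (M := CoxeterMatrix.F₄) (by simp [Nodes.RGDChev.IsType, Nodes.RGDChev.typeList])
    bond_F4 h

/-- **E₆ in its own characteristic.** -/
theorem row_e6Own {p : ℕ} (hp : p.Prime) (hp5 : 5 ≤ p) {K : Type w} [Group K] [Finite K] [IsSimpleGroup K]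
    (h : ∃ (F : Type) (_ : Field F) (_ : Fintype F) (_ : CharP F p), Nonempty (K ≃* Cfsg.Lie.chevE6.group F)) :
    Row p K :=
  row_chev hp hp5 (l := 6) (M := CoxeterMatrix.E₆) (by simp [Nodes.RGDChev.IsType, Nodes.RGDChev.typeList])
    bond_E6 h

/-- **E₇ in its own characteristic.** -/
theorem row_e7Own {p : ℕ} (hp : p.Prime) (hp5 : 5 ≤ p) {K : Type w} [Group K] [Finite K] [IsSimpleGroup K]
    (h : ∃ (F : Type) (_ : Field F) (_ : Fintype F) (_ : CharP F p), Nonempty (K ≃* Cfsg.Lie.chevE7.group F)) :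
    Row p K :=
  row_chev hp hp5 (l := 7) (M := CoxeterMatrix.E₇) (by simp [Nodes.RGDChev.IsType, Nodes.RGDChev.typeList])
    bond_E7 h

/-- **E₈ in its own characteristic.** -/
theorem row_e8Own {p : ℕ} (hp : p.Prime) (hp5 : 5 ≤ p) {K : Type w} [Group K] [Finite K] [IsSimpleGroup K]
    (h : ∃ (F : Type) (_ : Field F) (_ : Fintype F) (_ : CharP F p), Nonempty (K ≃* Cfsg.Lie.chevE8.group F)) :
    Row p K :=
  row_chev hp hp5 (l := 8) (M := CoxeterMatrix.E₈) (by simp [Nodes.RGDChev.IsType, Nodes.RGDChev.typeList])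
    bond_E8 h

/-- **²E₆ in its own characteristic.** -/
theorem row_twE6Own {p : ℕ} (hp : p.Prime) (hp5 : 5 ≤ p) {K : Type w} [Group K] [Finite K] [IsSimpleGroup K]
    (h : ∃ (E : Type) (_ : Field E) (_ : Fintype E) (_ : CharP E p) (q : ℕ), IsPrimePow q ∧ Fintype.card E = q ^ 2 ∧
      Nonempty (K ≃* Cfsg.Lie.twistedE6 E q)) : Row p K := by
  obtain ⟨E, _, _, _, q, hq, hE, ⟨e⟩⟩ := h
  have hpf := Fact.mk hp
  have hfin : Finite ↥(twistedE6 E q) := Finite.of_equiv K e.toEquiv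
  have hsim : IsSimpleGroup ↥(twistedE6 E q) := e.symm.isSimpleGroup
  have hW : Finite CoxeterMatrix.F₄.Group := Nodes.RGDChev.finite_W (D := chevF4) (l := 4) (M := CoxeterMatrix.F₄)
    (by simp [Nodes.RGDChev.IsType, Nodes.RGDChev.typeList]) CoxeterMatrix.F₄.toCoxeterSystem
  obtain ⟨φ, hφ, hqq⟩ := ChevalleyStructure.TwE6Basic.exists_frob hq hE
  refine row_of_pc hp hp5 fun a ha hPC => ?_
  have h1 : e a = 1 := Edge.eq_one (Nodes.RGDTwE6.rgd CoxeterMatrix.F₄.toCoxeterSystem hφ hqq p) (by omega)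
    (KFacts.RgdFilt.GG_eq_top (Nodes.RGDTwE6.G1_eq_top _ hφ hqq)) bond_F4 (by rw [← map_pow, ha, map_one])
    (hPC.of_equiv e)
  exact e.injective (by rw [h1, map_one])

/-- **PSL_n, `n ≥ 3`, in its own characteristic.** -/
theorem row_pslOwn {p : ℕ} (hp : p.Prime) (hp5 : 5 ≤ p) {K : Type w} [Group K] [Finite K] [IsSimpleGroup K]
    (h : ∃ (F : Type) (_ : Field F) (_ : Fintype F) (_ : CharP F p) (n : ℕ), 3 ≤ n ∧
      Nonempty (K ≃* Matrix.ProjectiveSpecialLinearGroup (Fin n) F)) : Row p K := by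
  obtain ⟨F, _, _, _, n, hn, ⟨e⟩⟩ := h
  obtain ⟨n, rfl⟩ : ∃ k, n = k + 1 := ⟨n - 1, by omega⟩
  have hpf := Fact.mk hp
  have hsim : IsSimpleGroup (Matrix.ProjectiveSpecialLinearGroup (Fin (n + 1)) F) := e.symm.isSimpleGroup
  have hfin : Finite (Matrix.ProjectiveSpecialLinearGroup (Fin (n + 1)) F) := Finite.of_equiv K e.toEquiv
  have hW : Finite (Cfsg.Agent.LieRecognition.BNCox.cA n).Group :=
    Nodes.RootsA.finite_W (Cfsg.Agent.LieRecognition.BNCox.cA n).toCoxeterSystem (Nodes.RootsA.isCartan n)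
  have hne : Nonempty (Fin n) := ⟨⟨0, by omega⟩⟩
  refine row_of_pc hp hp5 fun a ha hPC => ?_
  have hp2 : p ≠ 2 := by omega
  have h1 : e a = 1 := Edge.eq_one (Nodes.RGDTypeA.rgd_psl (F := F) (p := p)
      (Cfsg.Agent.LieRecognition.BNCox.cA n).toCoxeterSystem (Nodes.RootsA.isCartan n)) hp2
    (KFacts.RgdFilt.GG_eq_top (Nodes.RGDTypeA.G1_psl_eq_top _ _)) (bond_A (n := n) (by omega))
    (by rw [← map_pow, ha, map_one]) (hPC.of_equiv e)
  exact e.injective (by rw [h1, map_one])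

end Cfsg.Agent.H451.Tor
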