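import Mathlib
import Cfsg.Agent.H451.Tor.Hex
import Cfsg.Agent.H451.Tor.Rows
import Cfsg.Agent.Hexagon.TwD4Par
import Cfsg.Agent.Hexagon.G2End
import Cfsg.Agent.Schreier.BNArith
import Cfsg.Agent.S1027
import Cfsg.Agent.S1059
import Cfsg.Agent.S1067
import Cfsg.Agent.S1088

/-!
# The rows `G₂` and `³D₄` of S3235 in their own characteristic
-/

set_option autoImplicit false

namespace Cfsg.Agent.H451.Tor

open Cfsg Cfsg.Lie Cfsg.Agent.SplitTwo Cfsg.Agent.TitsThree.RankTwoZ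
open Cfsg.Agent.H103.Tor (Row Pr)
open Cfsg.Agent.ChevalleyStructure.Elts

universe u w

section G2

open Cfsg.Agent.Hexagon.G2Side Cfsg.Agent.Hexagon.G2End Cfsg.Agent.Hexagon.G2Pos

variable {F : Type u} [Field F]

theorem pos_tab : ∀ r < 12, chevG2.IsPosRoot r → ∃ k : ℕ, 1 ≤ k ∧ k ≤ 6 ∧ tab (k : ZMod (2 * 6)) = r := by
  have h : ∀ r < 12, chevG2.IsPosRoot r → ∃ k : Fin 7, 1 ≤ (k : ℕ) ∧ tab (((k : ℕ) : ZMod (2 * 6))) = r := by
    decide +kernel
  intro r hr hp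
  obtain ⟨k, h2, h3⟩ := h r hr hp
  exact ⟨k, h2, by omega, h3⟩

theorem U_eq : (rgdz F).U = (chevG2.posUnipotent F).subgroupOf (chevG2.group F) := by
  apply le_antisymm
  · exact fun g hg => U_le g hg
  · intro g hg
    rw [Subgroup.mem_subgroupOf] at hg
    have h1 : chevG2.posUnipotent F ≤ (rgdz F).U.map (chevG2.group F).subtype := by
      rw [posUnipotent_le_iff (by simp : InList chevG2)]
      intro r hr t
      obtain ⟨k, h1, h2, rfl⟩ := pos_tab r hr.1 hr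
      exact ⟨xs (tab (k : ZMod (2 * 6))) t, (rgdz F).X_le_U h1 h2 (mem_X.2 ⟨t, rfl⟩), rfl⟩
    obtain ⟨g', hg', e⟩ := h1 hg
    rw [← Subtype.ext e]
    exact hg'

theorem six_ne {p : ℕ} (hp : p.Prime) (hp5 : 5 ≤ p) [CharP F p] : (6 : F) ≠ 0 := by
  intro h
  have h1 : (p : ℕ) ∣ 6 := (CharP.cast_eq_zero_iff F p 6).1 (by exact_mod_cast h)
  have h2 : p ∣ 2 * 3 := by simpa using h1
  rcases (Nat.Prime.dvd_mul hp).1 h2 with h3 | h3
  · have := Nat.le_of_dvd (by norm_num) h3; omega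
  · have := Nat.le_of_dvd (by norm_num) h3; omega

/-- **G₂ in its own characteristic.** -/
theorem row_g2Own {p : ℕ} (hp : p.Prime) (hp5 : 5 ≤ p) {K : Type w} [Group K] [Finite K] [IsSimpleGroup K]
    (h : ∃ (F : Type) (_ : Field F) (_ : Fintype F) (_ : CharP F p), Nonempty (K ≃* Cfsg.Lie.chevG2.group F)) :
    Row p K := by
  obtain ⟨F, _, _, _, ⟨e⟩⟩ := h
  have hpf := Fact.mk hp
  have hfin : Finite ↥(chevG2.group F) := Finite.of_equiv K e.toEquiv
  have hsim : IsSimpleGroup ↥(chevG2.group F) := e.symm.isSimpleGroup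
  obtain ⟨n, hn⟩ := FiniteField.card F p
  have hq := hn.2
  set q := Fintype.card F with hqdef
  have hq1 : 1 < q := Fintype.one_lt_card
  have hpq : p ∣ q := by rw [hq]; exact dvd_pow_self p n.ne_zero
  have hcU : Nat.card (rgdz F).U = q ^ 6 := by
    rw [U_eq, Schreier.BNArith.card_subgroupOf, inf_eq_left.2 (posUnipotent_le_group (by simp : InList chevG2) F),
      Cfsg.Agent.S1027.result chevG2 (by simp)]
    rfl
  have hcG := Cfsg.Agent.S1059.result (F := F) (q := q) rfl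
  have hUp : IsPGroup p (rgdz F).U := by
    apply IsPGroup.of_card (n := n * 6)
    rw [hcU, hq, pow_mul]
  have hind : ¬ p ∣ (rgdz F).U.index := by
    have h1 := (rgdz F).U.card_mul_index
    rw [hcU, hcG, mul_assoc] at h1
    have h2 := Nat.eq_of_mul_eq_mul_left (pow_pos (by omega : 0 < q) 6) h1
    rw [h2, hp.dvd_mul]
    rintro (h | h)
    · exact Schreier.BNArith.not_dvd_pow_sub_one hp hpq hq1 (by norm_num) h
    · exact Schreier.BNArith.not_dvd_pow_sub_one hp hpq hq1 (by norm_num) h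
  refine row_of_pc hp hp5 fun a ha hPC => ?_
  have h1 : e a = 1 := Hx.eq_one (rgdz F) (gen F) U_ne_top hexPar (six_ne hp hp5) hUp hind
    (by rw [← map_pow, ha, map_one]) (hPC.of_equiv e)
  exact e.injective (by rw [h1, map_one])

end G2

section D4

open Cfsg.Agent.ChevalleyStructure
open Cfsg.Agent.ChevalleyStructure.D4Fixed (fix mem_fix twisted_le_fix)
open Cfsg.Agent.ChevalleyStructure.D4Comm Cfsg.Agent.ChevalleyStructure.TwistedU
open Cfsg.Agent.ChevalleyStructure.D4U Cfsg.Agent.Hexagon.TwD4RGD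

variable {K : Type*} [Field K] [Fintype K] {q : ℕ} {φ : K →+* K}

theorem le_U (hK : Fintype.card K = q ^ 3) (hφ : ∀ x, φ x = x ^ q) (c : RGDZ 6 ↥(twistedD4 K q))
    (hc : c.X = X K q) : (chevD4.posUnipotent K).subgroupOf (twistedD4 K q) ≤ c.U := by
  have hle := twisted_le_fix hK hφ
  have hK3 := phi3 hK hφ
  rintro ⟨g, hgG⟩ hg
  rw [Subgroup.mem_subgroupOf] at hg
  obtain ⟨a, b, c', d, e', f, ha, he, hf, hge⟩ := (mem_U_inf_iff hK3 hφ hle g).1 ⟨hg, hgG⟩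
  have mem (l : List ℕ) (r : ℕ) (t : K) (h : r ∈ l) :
      D4Comm.xG r t ∈ RS K l := mem_rspan D4Comm.xG (S := {k | k ∈ l}) h t
  have hX : ∀ k : ℕ, 1 ≤ k → k ≤ 6 → ∀ (l : List ℕ), L (k : ZMod (2 * 6)) = l →
      ∀ (g : GL chevD4.Idx K) (hg : g ∈ twistedD4 K q),
      g ∈ RS K l → (⟨g, hg⟩ : ↥(twistedD4 K q)) ∈ c.U := by
    intro k h1 h2 l hl g hg hgR
    refine c.X_le_U h1 h2 ?_
    rw [hc, mem_X, hl]
    exact hgR
  rw [elt_eq] at hge
  have m6 : D4Comm.xG 14 a ∈ twistedD4 K q := xG14_mem hφ ha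
  have m1 : D4Comm.xG 18 b * D4Comm.xG 13 (φ b) * D4Comm.xG 12 (φ (φ b)) ∈ twistedD4 K q := by
    have := D4Fixed.X_mem (q := q) hφ b
    unfold D4Fixed.X at this
    rwa [xU_eq, xU_eq, xU_eq] at this
  have hab : D4Comm.xG 19 c' * D4Comm.xG 16 (-φ c') * D4Comm.xG 15 (-φ (φ c')) = elt φ 0 0 c' 0 0 0 := by
    rw [elt_eq]
    simp only [map_zero, D4Comm.xG_zero, neg_zero, one_mul, mul_one]
  have habb : D4Comm.xG 21 d * D4Comm.xG 17 (-φ d) * D4Comm.xG 20 (φ (φ d)) = elt φ 0 0 0 d 0 0 := by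
    rw [elt_eq]
    simp only [map_zero, D4Comm.xG_zero, neg_zero, one_mul, mul_one]
  have r5 : D4Comm.xG 19 c' * D4Comm.xG 16 (-φ c') * D4Comm.xG 15 (-φ (φ c')) ∈ RS K [19, 16, 15] :=
    mul_mem (mul_mem (mem _ _ _ (by decide)) (mem _ _ _ (by decide))) (mem _ _ _ (by decide))
  have m5 : D4Comm.xG 19 c' * D4Comm.xG 16 (-φ c') * D4Comm.xG 15 (-φ (φ c')) ∈ twistedD4 K q := by
    refine RS_ab_le hφ hle r5 ?_
    rw [hab, elt_mem_fix_iff hK3]
    simp
  have r3' : D4Comm.xG 21 d * D4Comm.xG 17 (-φ d) * D4Comm.xG 20 (φ (φ d)) ∈ RS K [21, 17, 20] :=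
    mul_mem (mul_mem (mem _ _ _ (by decide)) (mem _ _ _ (by decide))) (mem _ _ _ (by decide))
  have r3 : D4Comm.xG 21 d * D4Comm.xG 17 (-φ d) * D4Comm.xG 20 (φ (φ d)) ∈ RS K [20, 21, 17] :=
    mul_mem (mul_mem (mem _ _ _ (by decide)) (mem _ _ _ (by decide))) (mem _ _ _ (by decide))
  have m3 : D4Comm.xG 21 d * D4Comm.xG 17 (-φ d) * D4Comm.xG 20 (φ (φ d)) ∈ twistedD4 K q := by
    refine RS_abb_le hφ hle r3' ?_
    rw [habb, elt_mem_fix_iff hK3]
    simp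
  have m2 : D4Comm.xG 22 e' ∈ twistedD4 K q := by
    refine RS_22_le hφ hle (mem _ _ _ (by decide)) ?_
    rw [mem_fix, sig_22, he]
  have m4 : D4Comm.xG 23 f ∈ twistedD4 K q := by
    refine RS_23_le hφ hle (mem _ _ _ (by decide)) ?_
    rw [mem_fix, sig_23, hf]
  have e : (⟨g, hgG⟩ : ↥(twistedD4 K q)) = ⟨_, m6⟩ * ⟨_, m1⟩ * ⟨_, m5⟩ * ⟨_, m3⟩ * ⟨_, m2⟩ * ⟨_, m4⟩ :=
    Subtype.ext hge
  rw [e]
  refine mul_mem (mul_mem (mul_mem (mul_mem (mul_mem ?_ ?_) ?_) ?_) ?_) ?_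
  · exact hX 6 (by norm_num) le_rfl [14] (by decide +kernel) _ m6 (mem _ _ _ (by decide))
  · exact hX 1 le_rfl (by norm_num) [18, 13, 12] (by decide +kernel) _ m1
      (mul_mem (mul_mem (mem _ _ _ (by decide)) (mem _ _ _ (by decide))) (mem _ _ _ (by decide)))
  · exact hX 5 (by norm_num) (by norm_num) [19, 16, 15] (by decide +kernel) _ m5 r5
  · exact hX 3 (by norm_num) (by norm_num) [20, 21, 17] (by decide +kernel) _ m3 r3
  · exact hX 2 (by norm_num) (by norm_num) [22] (by decide +kernel) _ m2 (mem _ _ _ (by decide))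
  · exact hX 4 (by norm_num) (by norm_num) [23] (by decide +kernel) _ m4 (mem _ _ _ (by decide))

theorem U_eq_D4 (hK : Fintype.card K = q ^ 3) (hφ : ∀ x, φ x = x ^ q) (c : RGDZ 6 ↥(twistedD4 K q))
    (hc : c.X = X K q) : c.U = (chevD4.posUnipotent K).subgroupOf (twistedD4 K q) := by
  refine le_antisymm (iSup₂_le fun k hk => ?_) (le_U hK hφ c hc)
  have h1 : c.r2.X k = X K q (k : ZMod (2 * 6)) := by
    show c.X (k : ZMod (2 * 6)) = _
    rw [hc]
  rw [h1]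
  exact X_le_pos hk.1 hk.2

/-- **³D₄ in its own characteristic.** -/
theorem row_twD4Own {p : ℕ} (hp : p.Prime) (hp5 : 5 ≤ p) {K : Type w} [Group K] [Finite K] [IsSimpleGroup K]
    (h : ∃ (E : Type) (_ : Field E) (_ : Fintype E) (_ : CharP E p) (q : ℕ), IsPrimePow q ∧
      Fintype.card E = q ^ 3 ∧ Nonempty (K ≃* Cfsg.Lie.twistedD4 E q)) : Row p K := by
  obtain ⟨E, _, _, hch, q, hq, hE, ⟨e⟩⟩ := h
  have hpf := Fact.mk hp
  have hfin : Finite ↥(twistedD4 E q) := Finite.of_equiv K e.toEquiv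
  have hsim : IsSimpleGroup ↥(twistedD4 E q) := e.symm.isSimpleGroup
  obtain ⟨φ, hφ⟩ := D4Fixed.exists_frob hq hE
  -- `σ` as a ring automorphism
  have hinj : Function.Injective φ := φ.injective
  let σ : E ≃+* E := RingEquiv.ofBijective φ ((Finite.injective_iff_bijective).1 hinj)
  have hσ : ∀ x, σ x = x ^ q := fun x => hφ x
  have hσφ : ∀ x, σ x = φ x := fun _ => rfl
  have h3 : ∀ a, σ (σ (σ a)) = a := fun t => phi3 hE hφ t
  have hP := Hexagon.TwD4Par.hexPar hφ (twisted_le_fix hE hφ) hσφ h3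
  obtain ⟨c, hc, hgen, hUt⟩ := exists_rgdz hE hφ hP
  have hP' := hc ▸ hP
  obtain ⟨p', k, hp', hk, hpk⟩ := (isPrimePow_nat_iff _).1 hq
  have hpp : p' = p := by
    have h1 : Fintype.card E = p' ^ (k * 3) := by rw [hE, pow_mul, hpk]
    have hf' : Fact p'.Prime := ⟨Nat.prime_iff.2 (Nat.prime_iff.1 hp')⟩
    have := charP_of_card_eq_prime_pow (p := p') h1
    exact CharP.eq E this hch
  subst hpp
  have hq1 : 1 < q := hq.one_lt
  have hpq : p' ∣ q := hpk ▸ dvd_pow_self p' hk.ne'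
  have hcU : Nat.card c.U = q ^ 12 := by
    rw [U_eq_D4 hE hφ c hc, Schreier.BNArith.card_subgroupOf]
    exact Cfsg.Agent.S1088.result hq hE
  have hcG := Cfsg.Agent.S1067.result hq hE
  have hUp : IsPGroup p' c.U := by
    apply IsPGroup.of_card (n := k * 12)
    rw [hcU, pow_mul, hpk]
  have hind : ¬ p' ∣ c.U.index := by
    have h1 := c.U.card_mul_index
    rw [hcU, hcG, mul_assoc, mul_assoc] at h1
    have h2 := Nat.eq_of_mul_eq_mul_left (pow_pos (by omega : 0 < q) 12) h1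
    rw [h2, hp.dvd_mul, hp.dvd_mul]
    rintro (h | h | h)
    · exact Schreier.BNArith.not_dvd_pow_sub_one hp hpq hq1 (by norm_num) h
    · exact Schreier.BNArith.not_dvd_pow_sub_one hp hpq hq1 (by norm_num) h
    · have h5 : p' ∣ q ^ 8 + q ^ 4 := dvd_add (dvd_pow hpq (by norm_num)) (dvd_pow hpq (by norm_num))
      exact hp.one_lt.ne' (Nat.dvd_one.1 ((Nat.dvd_add_right h5).1 h))
  refine row_of_pc hp hp5 fun a ha hPC => ?_
  have h1 : e a = 1 := Hx.eq_one c hgen hUt hP' (six_ne hp hp5) hUp hind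
    (by rw [← map_pow, ha, map_one]) (hPC.of_equiv e)
  exact e.injective (by rw [h1, map_one])

end D4

end Cfsg.Agent.H451.Tor
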