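import Cfsg.Agent.H103.Tor.Basic
import Cfsg.Agent.BpLieP.Big

/-!
# S3235: `A` normalises no nontrivial `r`-subgroup, `r ≠ p` (helper451)
-/

set_option autoImplicit false

namespace Cfsg.Agent.H451.Tor

open Subgroup Cfsg
open Cfsg.Agent.H103.Tor
open Cfsg.Agent.BpLieP.Big (LocChar)

/-- in a group whose `r`-local subgroups have characteristic `r`, a subgroup with `Pr p` (`p ≠ r`) normalises no nontrivial
`r`-subgroup -/
theorem no_norm {G : Type*} [Group G] [Finite G] {p r : ℕ} (hp : p.Prime) (hp5 : 5 ≤ p) (hr : r.Prime) (hrp : r ≠ p)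
    (hL : LocChar r G) {A : Subgroup G} (h : Pr p A) {R : Subgroup G} (hR : IsPGroup r R)
    (hn : ∀ a ∈ A, ∀ x ∈ R, a * x * a⁻¹ ∈ R) : R = ⊥ := by
  by_contra hR1
  have hrf := Fact.mk hr
  have hA : A ≤ normalizer (R : Set G) := by
    intro a ha
    rw [mem_normalizer_iff]
    intro x
    constructor
    · intro hx; exact hn a ha x hx
    · intro hx
      have := hn a⁻¹ (A.inv_mem ha) _ hx
      have e : a⁻¹ * (a * x * a⁻¹) * a⁻¹⁻¹ = x := by group
      rwa [e] at this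
  obtain ⟨N, hN⟩ : ∃ N : Subgroup G, N = normalizer (R : Set G) := ⟨_, rfl⟩
  have hchar := hL R hR hR1
  rw [← hN] at hchar hA
  obtain ⟨Q, hQ⟩ : ∃ Q : Subgroup G, Q = (pCore r ↥N).map N.subtype := ⟨_, rfl⟩
  have hOn : (pCore r ↥N).Normal := Cfsg.Agent.Lib.Cores.pCore_normal r
  have hOp : IsPGroup r (pCore r ↥N) := Cfsg.Agent.Lib.Cores.pCore_isPGroup r
  have hQp : IsPGroup r Q := by rw [hQ]; exact hOp.map _
  have hQn : ∀ a ∈ A, ∀ x ∈ Q, a * x * a⁻¹ ∈ Q := by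
    intro a ha x hx
    rw [hQ] at hx ⊢
    obtain ⟨y, hy, rfl⟩ := hx
    exact ⟨⟨a, hA ha⟩ * y * ⟨a, hA ha⟩⁻¹, hOn.conj_mem y hy _, rfl⟩
  have hpQ : ¬ p ∣ Nat.card Q := by
    intro hd
    obtain ⟨k, hk⟩ := IsPGroup.iff_card.1 hQp
    rw [hk] at hd
    have := hp.dvd_of_dvd_pow hd
    rw [Nat.prime_dvd_prime_iff_eq hp hr] at this
    exact hrp this.symm
  have hc := h.centralize_of_not_dvd hp hp5 hQn hpQ
  have hAQ : A ≤ Q := by
    intro a ha
    have h1 : (⟨a, hA ha⟩ : N) ∈ pCore r ↥N := by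
      apply hchar
      rw [mem_centralizer_iff]
      intro y hy
      apply Subtype.ext
      exact (hc a ha y (by rw [hQ]; exact ⟨y, hy, rfl⟩)).symm
    rw [hQ]
    exact ⟨_, h1, rfl⟩
  apply hpQ
  rw [← h.card]
  exact Subgroup.card_dvd_of_le hAQ

end Cfsg.Agent.H451.Tor
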