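import Mathlib

/-!
# An irreducible element lies in `SL₂` over a bigger field (helper451)

`V` a finite vector space over `F`, `T` an invertible irreducible operator with `T ∉ F[T + T⁻¹]`. Then `K = F[T + T⁻¹]` is a field,
`V` is `2`-dimensional over `K` and `T ∈ SL₂(K)`; `SL₂(K)` preserves every alternating form preserved by `T`.
-/

set_option autoImplicit false

namespace Cfsg.Agent.H451.Tor.SubSL

variable {F : Type} [Field F] {V : Type} [AddCommGroup V] [Module F V]

section Field

variable {T S : Module.End F V} (hTS : T * S = 1) (hST : S * T = 1)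
  (hirr : ∀ W : Submodule F V, (∀ w ∈ W, T w ∈ W) → W = ⊥ ∨ W = ⊤)

include hirr in
/-- Schur -/
theorem schur {e : Module.End F V} (he : ∀ x, e (T x) = T (e x)) {v : V} (hv : v ≠ 0) (hev : e v = 0) : e = 0 := by
  rcases hirr (LinearMap.ker e) (fun w hw => by
    rw [LinearMap.mem_ker] at hw ⊢
    rw [he, hw, map_zero]) with h | h
  · exfalso
    apply hv
    have : v ∈ LinearMap.ker e := hev
    rwa [h, Submodule.mem_bot] at this
  · exact LinearMap.ker_eq_top.1 h

include hTS hST in
theorem comm_of_mem {e : Module.End F V} (he : e ∈ Algebra.adjoin F {T + S}) (x : V) : e (T x) = T (e x) := by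
  have h1 : Algebra.adjoin F {T + S} ≤ Subalgebra.centralizer F {T} := by
    apply Algebra.adjoin_le
    rw [Set.singleton_subset_iff, SetLike.mem_coe, Subalgebra.mem_centralizer_iff]
    intro g hg
    rw [Set.mem_singleton_iff] at hg
    rw [hg, mul_add, add_mul, hTS, hST]
  have h2 := (Subalgebra.mem_centralizer_iff F).1 (h1 he) T rfl
  exact (LinearMap.congr_fun h2 x).symm

include hTS hST hirr in
theorem exists_field [Finite V] (hT : T ∉ Algebra.adjoin F {T + S}) {v : V} (hv : v ≠ 0) :
    ∃ (K : Type) (_ : Field K) (_ : Finite K) (_ : Algebra F K) (ρ : K →ₐ[F] Module.End F V),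
      (∀ e, e ∈ Algebra.adjoin F {T + S} ↔ ∃ k, ρ k = e) ∧ (∃ c, ρ c = T + S) ∧
        Function.Bijective (fun x : K × K => ρ x.1 v + ρ x.2 (T v)) := by
  classical
  have : Nontrivial V := ⟨v, 0, hv⟩
  have hfin : Finite (Module.End F V) := Finite.of_injective (fun e : Module.End F V => (e : V → V)) DFunLike.coe_injective
  obtain ⟨E, hE⟩ : ∃ E : Subalgebra F (Module.End F V), E = Algebra.adjoin F {T + S} := ⟨_, rfl⟩
  have hc : ∀ e ∈ E, ∀ x, e (T x) = T (e x) := fun e he x => comm_of_mem hTS hST (hE ▸ he) x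
  have hdom : IsDomain E := by
    have : NoZeroDivisors E := by
      refine ⟨fun {a b} hab => ?_⟩
      by_contra hcon
      push Not at hcon
      obtain ⟨ha, hb⟩ := hcon
      apply ha
      obtain ⟨x, hx⟩ : ∃ x, (b : Module.End F V) x ≠ 0 := by
        by_contra hn
        push Not at hn
        apply hb
        apply Subtype.ext
        ext x
        simpa using hn x
      apply Subtype.ext
      apply schur hirr (hc a a.2) hx
      have := congrArg (fun e : E => (e : Module.End F V) x) hab
      simpa using this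
    exact NoZeroDivisors.to_isDomain E
  have hfield : IsField E := Finite.isDomain_to_isField E
  obtain ⟨K, iK, hfK, iA, ρ, hρ⟩ : ∃ (K : Type) (_ : Field K) (_ : Finite K) (_ : Algebra F K)
      (ρ : K →ₐ[F] Module.End F V), ∀ e, e ∈ E ↔ ∃ k, ρ k = e := by
    let fE : Field E := hfield.toField
    refine ⟨E, fE, inferInstance, (inferInstance : Algebra F E), E.val, fun e => ?_⟩
    constructor
    · intro he; exact ⟨⟨e, he⟩, rfl⟩
    · rintro ⟨k, rfl⟩; exact k.2
  have hρE : ∀ k, ρ k ∈ E := fun k => (hρ _).2 ⟨k, rfl⟩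
  have hadj : T + S ∈ E := by rw [hE]; exact Algebra.subset_adjoin rfl
  obtain ⟨c, hcT⟩ := (hρ _).1 hadj
  refine ⟨K, iK, hfK, iA, ρ, fun e => hE ▸ hρ e, ⟨c, hcT⟩, ?_, ?_⟩
  · rintro ⟨a, b⟩ ⟨a', b'⟩ hab
    simp only at hab
    have h1 : ρ (a - a') v + ρ (b - b') (T v) = 0 := by
      rw [map_sub, map_sub, LinearMap.sub_apply, LinearMap.sub_apply]
      rw [← sub_eq_zero] at hab
      rw [← hab]
      abel
    have h2 : ρ (a - a') + ρ (b - b') * T = 0 := by
      apply schur hirr ?_ hv ?_
      · intro x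
        simp only [LinearMap.add_apply, Module.End.mul_apply, map_add]
        rw [hc _ (hρE _), hc _ (hρE _)]
      · rw [LinearMap.add_apply, Module.End.mul_apply]; exact h1
    have hb : b - b' = 0 := by
      by_contra hb
      apply hT
      rw [← hE]
      have h3 : T = ρ (-((b - b')⁻¹ * (a - a'))) := by
        have h4 : ρ ((b - b')⁻¹) * (ρ (a - a') + ρ (b - b') * T) = 0 := by rw [h2, mul_zero]
        rw [mul_add, ← mul_assoc, ← map_mul, ← map_mul, inv_mul_cancel₀ hb, map_one, one_mul] at h4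
        rw [map_neg, eq_neg_iff_add_eq_zero, add_comm]
        exact h4
      rw [h3]
      exact hρE _
    rw [hb, map_zero, zero_mul, add_zero] at h2
    have ha : a - a' = 0 := (map_eq_zero_iff ρ ρ.toRingHom.injective).1 h2
    rw [sub_eq_zero] at ha hb
    rw [ha, hb]
  · -- surjective
    obtain ⟨W, hW⟩ : ∃ W : Submodule F V, ∀ w, w ∈ W ↔ ∃ x : K × K, ρ x.1 v + ρ x.2 (T v) = w := by
      refine ⟨{ carrier := {w | ∃ x : K × K, ρ x.1 v + ρ x.2 (T v) = w}
                add_mem' := ?_
                zero_mem' := ⟨(0, 0), by simp⟩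
                smul_mem' := ?_ }, fun _ => Iff.rfl⟩
      · rintro _ _ ⟨x, rfl⟩ ⟨y, rfl⟩
        refine ⟨(x.1 + y.1, x.2 + y.2), ?_⟩
        simp only [map_add, LinearMap.add_apply]
        abel
      · rintro s _ ⟨x, rfl⟩
        refine ⟨(s • x.1, s • x.2), ?_⟩
        simp only [map_smul, LinearMap.smul_apply, smul_add]
    have hT2 : ∀ x, T (T x) = (T + S) (T x) - x := by
      intro x
      have h1 := LinearMap.congr_fun hST x
      simp only [Module.End.mul_apply, Module.End.one_apply] at h1
      rw [LinearMap.add_apply, h1, add_sub_cancel_right]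
    rcases hirr W (by
      intro w hw
      rw [hW] at hw ⊢
      obtain ⟨x, rfl⟩ := hw
      refine ⟨(-x.2, x.1 + x.2 * c), ?_⟩
      have e1 : T (ρ x.2 (T v)) = ρ x.2 (T (T v)) := (hc _ (hρE _) _).symm
      have e2 : T (ρ x.1 v) = ρ x.1 (T v) := (hc _ (hρE _) _).symm
      simp only [map_add, map_neg, map_mul, LinearMap.add_apply, LinearMap.neg_apply, Module.End.mul_apply]
      rw [e1, e2, hT2, hcT, map_sub]
      abel) with h | h
    · exfalso
      apply hv
      have : v ∈ W := (hW v).2 ⟨(1, 0), by simp⟩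
      rwa [h, Submodule.mem_bot] at this
    · intro w
      exact (hW w).1 (by rw [h]; trivial)

end Field

section Hom

variable {K : Type} [Field K] [Algebra F K]

/-- the two-dimensional structure -/
theorem exists_hom_aux (ρ : K →ₐ[F] Module.End F V) (v w : V)
    (hb : Function.Bijective (fun x : K × K => ρ x.1 v + ρ x.2 w)) :
    ∃ Ψ : Matrix (Fin 2) (Fin 2) K →* Module.End F V, Function.Injective Ψ ∧
      (∀ M a b, Ψ M (ρ a v + ρ b w) = ρ (M 0 0 * a + M 0 1 * b) v + ρ (M 1 0 * a + M 1 1 * b) w) ∧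
      (∀ M, M.det = 1 → LinearMap.det (Ψ M) = 1) := by
  let _ : Module K V := Module.compHom V ρ.toRingHom
  have hsm : ∀ (k : K) (x : V), k • x = ρ k x := fun _ _ => rfl
  have _ : IsScalarTower F K V := ⟨fun c k x => by
    rw [hsm, hsm, map_smul, LinearMap.smul_apply]⟩
  let f : (Fin 2 → K) →ₗ[K] V :=
    { toFun := fun x => x 0 • v + x 1 • w
      map_add' := fun x y => by simp only [Pi.add_apply, add_smul]; abel
      map_smul' := fun c x => by simp only [Pi.smul_apply, smul_eq_mul, mul_smul, RingHom.id_apply, smul_add] }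
  have hf : ∀ x, f x = x 0 • v + x 1 • w := fun _ => rfl
  have hfb : Function.Bijective f := by
    constructor
    · intro x y hxy
      have h1 := @hb.1 (x 0, x 1) (y 0, y 1) hxy
      rw [Prod.mk.injEq] at h1
      funext i
      fin_cases i
      · exact h1.1
      · exact h1.2
    · intro y
      obtain ⟨x, hx⟩ := hb.2 y
      exact ⟨![x.1, x.2], hx⟩
  let e : (Fin 2 → K) ≃ₗ[K] V := LinearEquiv.ofBijective f hfb
  let b : Module.Basis (Fin 2) K V := Module.Basis.ofEquivFun e.symm
  have hv : b 0 = v := by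
    rw [Module.Basis.coe_ofEquivFun]
    simp only [LinearEquiv.symm_symm]
    show f _ = v
    rw [hf]
    simp [Pi.single, Function.update]
  have hw : b 1 = w := by
    rw [Module.Basis.coe_ofEquivFun]
    simp only [LinearEquiv.symm_symm]
    show f _ = w
    rw [hf]
    simp [Pi.single, Function.update]
  let Ψ : Matrix (Fin 2) (Fin 2) K →* Module.End F V :=
    { toFun := fun M => (Matrix.toLin b b M).restrictScalars F
      map_one' := by
        rw [Matrix.toLin_one]
        rfl
      map_mul' := fun M N => by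
        rw [Matrix.toLin_mul b b b]
        rfl }
  have hΨ : ∀ M x, Ψ M x = Matrix.toLin b b M x := fun _ _ => rfl
  refine ⟨Ψ, ?_, ?_, ?_⟩
  · intro M N hMN
    apply (Matrix.toLin b b).injective
    ext x
    exact LinearMap.congr_fun hMN x
  · intro M x y
    rw [hΨ, ← hsm, ← hsm, map_add, map_smul, map_smul]
    have h0 : Matrix.toLin b b M v = M 0 0 • v + M 1 0 • w := by
      rw [← hv, Matrix.toLin_self, Fin.sum_univ_two, hv, hw]
    have h1 : Matrix.toLin b b M w = M 0 1 • v + M 1 1 • w := by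
      conv_lhs => rw [← hw]
      rw [Matrix.toLin_self, Fin.sum_univ_two, hv, hw]
    rw [h0, h1, ← hsm, ← hsm, add_smul, add_smul, mul_comm (M 0 0), mul_comm (M 0 1), mul_comm (M 1 0),
      mul_comm (M 1 1), mul_smul, mul_smul, mul_smul, mul_smul, smul_add, smul_add]
    abel
  · intro M hM
    have h1 : LinearMap.det (Matrix.toLin b b M) = 1 := by
      rw [LinearMap.det_toLin, hM]
    have h2 := LinearMap.det_restrictScalars (R := F) (f := Matrix.toLin b b M)
    rw [h1, map_one] at h2
    exact h2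

end Hom

/-- `F[T + T⁻¹]` is self-adjoint -/
theorem selfadj {T S : Module.End F V} (hTS : T * S = 1) {b : V →ₗ[F] V →ₗ[F] F}
    (hbT : ∀ x y, b (T x) (T y) = b x y) {e : Module.End F V} (he : e ∈ Algebra.adjoin F {T + S}) :
    ∀ x y, b (e x) y = b x (e y) := by
  induction he using Algebra.adjoin_induction with
  | mem x hx =>
    rw [Set.mem_singleton_iff] at hx
    subst hx
    intro x y
    have hS : ∀ z, T (S z) = z := fun z => LinearMap.congr_fun hTS z
    rw [LinearMap.add_apply, LinearMap.add_apply, map_add, map_add, LinearMap.add_apply]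
    have h2 : b (T x) y = b x (S y) := by rw [← hbT x (S y), hS]
    have h3 : b (S x) y = b x (T y) := by rw [← hbT (S x) y, hS]
    rw [h2, h3, add_comm]
  | algebraMap r =>
    intro x y
    simp [Module.algebraMap_end_apply]
  | add e f _ _ ihe ihf =>
    intro x y
    rw [LinearMap.add_apply, LinearMap.add_apply, map_add, map_add, LinearMap.add_apply, ihe, ihf]
  | mul e f he hf ihe ihf =>
    intro x y
    have hcom : Commute e f :=
      Algebra.commute_of_mem_adjoin_singleton_of_commute hf (Algebra.commute_of_mem_adjoin_self he).symm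
    rw [Module.End.mul_apply, ihe, ihf, ← Module.End.mul_apply, hcom.eq]

/-- **the embedding** -/
theorem exists_hom [Finite F] [Finite V] {T S : Module.End F V} (hTS : T * S = 1) (hST : S * T = 1)
    (hirr : ∀ W : Submodule F V, (∀ w ∈ W, T w ∈ W) → W = ⊥ ∨ W = ⊤) (hT : T ∉ Algebra.adjoin F {T + S})
    {v : V} (hv : v ≠ 0) :
    ∃ (K : Type) (_ : Field K) (_ : Finite K) (Ψ : Matrix (Fin 2) (Fin 2) K →* Module.End F V),
      Function.Injective Ψ ∧ (∃ M : Matrix (Fin 2) (Fin 2) K, M.det = 1 ∧ Ψ M = T) ∧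
      Nat.card V = Nat.card K ^ 2 ∧ ((ringChar K) = (ringChar F)) ∧ (∀ c : K, c * c = 1 → Ψ (c • 1) = 1 ∨ Ψ (c • 1) = -1) ∧
      (∀ M, M.det = 1 → LinearMap.det (Ψ M) = 1) ∧
      ∀ b : V →ₗ[F] V →ₗ[F] F, (∀ x, b x x = 0) → (∀ x y, b (T x) (T y) = b x y) →
        ∀ M, M.det = 1 → ∀ x y, b (Ψ M x) (Ψ M y) = b x y := by
  obtain ⟨K, iK, hfK, iA, ρ, hρ', ⟨c, hc⟩, hbij⟩ := exists_field hTS hST hirr hT hv
  have hρ : ∀ k, ρ k ∈ Algebra.adjoin F {T + S} := fun k => (hρ' _).2 ⟨k, rfl⟩
  obtain ⟨Ψ, hinj, hΨ, hdet⟩ := exists_hom_aux ρ v (T v) hbij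
  have hcomm : ∀ k x, ρ k (T x) = T (ρ k x) := fun k x => comm_of_mem hTS hST (hρ k) x
  have hT2 : ∀ x, T (T x) = ρ c (T x) - x := by
    intro x
    have h1 := LinearMap.congr_fun hST x
    simp only [Module.End.mul_apply, Module.End.one_apply] at h1
    rw [hc, LinearMap.add_apply, h1, add_sub_cancel_right]
  refine ⟨K, iK, hfK, Ψ, hinj, ⟨!![0, -1; 1, c], by simp, ?_⟩, ?_, ?_, ?_, hdet, ?_⟩
  · ext x
    obtain ⟨⟨a, b⟩, rfl⟩ := hbij.2 x
    simp only
    rw [hΨ]
    simp only [Matrix.of_apply, Matrix.cons_val_zero, Matrix.cons_val_one, Matrix.cons_val', Matrix.cons_val_fin_one,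
      zero_mul, zero_add, neg_mul, one_mul, map_neg, map_add, map_mul, LinearMap.neg_apply, LinearMap.add_apply,
      Module.End.mul_apply]
    rw [← hcomm a v, ← hcomm b (T v), hT2, map_sub]
    have h3 : ρ c (ρ b (T v)) = ρ b (ρ c (T v)) := by
      rw [← Module.End.mul_apply, ← map_mul, mul_comm, map_mul, Module.End.mul_apply]
    rw [h3]
    abel
  · rw [Nat.card_congr (Equiv.ofBijective _ hbij).symm, Nat.card_prod, sq]
  · obtain ⟨q, hq⟩ := CharP.exists F
    have hq' : CharP K q := charP_of_injective_algebraMap (algebraMap F K).injective q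
    rw [ringChar.eq F q, ringChar.eq K q]
  · intro k hk
    rcases mul_self_eq_one_iff.1 hk with rfl | rfl
    · left
      rw [one_smul, map_one]
    · right
      ext x
      obtain ⟨⟨a, b⟩, rfl⟩ := hbij.2 x
      simp only
      rw [hΨ]
      simp
      abel
  · intro b halt hbT M hM x y
    -- self-adjointness
    have hsa : ∀ k x y, b (ρ k x) y = b x (ρ k y) := by
      intro k
      exact selfadj hTS hbT (hρ k)
    have hskew : ∀ x y, b x y = - b y x := by
      intro x y
      have h1 := halt (x + y)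
      simp only [map_add, LinearMap.add_apply, halt, zero_add, add_zero] at h1
      exact eq_neg_of_add_eq_zero_left (by rw [← h1, add_comm])
    have hz : ∀ k x, b (ρ k x) x = 0 := by
      intro k x
      by_cases h2 : (2 : F) = 0
      · have hchar : ringChar K = 2 := by
          have h3 : (2 : K) = 0 := by
            have h4 : algebraMap F K 2 = 0 := by rw [h2, map_zero]
            rwa [map_ofNat] at h4
          have h5 : ringChar K ∣ 2 := ringChar.dvd (by exact_mod_cast h3)
          rcases (Nat.dvd_prime Nat.prime_two).1 h5 with h6 | h6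
          · exfalso
            have h7 := CharP.cast_eq_zero_iff K (ringChar K) 1
            rw [h6] at h7
            have h8 := h7.2 (dvd_refl 1)
            rw [Nat.cast_one] at h8
            exact one_ne_zero h8
          · exact h6
        obtain ⟨l, hl⟩ := FiniteField.isSquare_of_char_two hchar k
        rw [hl, map_mul, Module.End.mul_apply, hsa, halt]
      · have h3 : b (ρ k x) x = - b (ρ k x) x := by
          conv_lhs => rw [hskew, ← hsa]
        have h4 : (2 : F) * b (ρ k x) x = 0 := by linear_combination h3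
        exact (mul_eq_zero.1 h4).resolve_left h2
    have hform : ∀ a₁ a₂ b₁ b₂, b (ρ a₁ v + ρ a₂ (T v)) (ρ b₁ v + ρ b₂ (T v)) =
        b (ρ (a₁ * b₂ - a₂ * b₁) v) (T v) := by
      intro a₁ a₂ b₁ b₂
      have hm : ∀ k l x y, b (ρ k x) (ρ l y) = b (ρ (k * l) x) y := by
        intro k l x y
        rw [← hsa, ← Module.End.mul_apply, ← map_mul, mul_comm]
      simp only [map_add, LinearMap.add_apply, hm, hz, zero_add, add_zero]
      have h1 : b (ρ (a₂ * b₁) (T v)) v = - b (ρ (a₂ * b₁) v) (T v) := by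
        rw [hskew, ← hsa]
      rw [h1, map_sub, LinearMap.sub_apply, map_sub, LinearMap.sub_apply]
      ring
    obtain ⟨⟨a₁, a₂⟩, rfl⟩ := hbij.2 x
    obtain ⟨⟨b₁, b₂⟩, rfl⟩ := hbij.2 y
    simp only
    rw [hΨ, hΨ, hform, hform]
    rw [Matrix.det_fin_two] at hM
    have h1 : (M 0 0 * a₁ + M 0 1 * a₂) * (M 1 0 * b₁ + M 1 1 * b₂) -
        (M 1 0 * a₁ + M 1 1 * a₂) * (M 0 0 * b₁ + M 0 1 * b₂) = a₁ * b₂ - a₂ * b₁ := by
      linear_combination (a₁ * b₂ - a₂ * b₁) * hM
    rw [h1]

end Cfsg.Agent.H451.Tor.SubSL
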