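import Cfsg.Agent.H451.Tor.PSpGeo
import Cfsg.Agent.H451.Tor.SubSL
import Cfsg.Agent.H103.Tor.Iface
import Cfsg.Agent.H330.Gow
import Cfsg.Agent.H103.Tor.PSLTwoMain

/-!
# S3235: the row `PSp_{2m}(q)` in cross characteristic (helper451)

`row_pspCross_of` : the row, given the statement `PSLTwoCross p` on `PSL₂` in cross characteristic.
-/

set_option autoImplicit false

namespace Cfsg.Agent.H451.Tor

open Subgroup Cfsg
open Cfsg.Agent.H103.Tor
open Cfsg.Agent.BpLieP.Big (LocChar)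
open Cfsg.Agent.ClassicalGeometry.SympBasic

/-- the statement on `PSL₂` in cross characteristic -/
def PSLTwoCross (p : ℕ) : Prop :=
  ∀ (K : Type) [Field K] [Fintype K], 4 ≤ Fintype.card K → (p : K) ≠ 0 →
    ∀ A : Subgroup (Matrix.ProjectiveSpecialLinearGroup (Fin 2) K), Pr p A → p = 5 ∧ Fintype.card K = 4

/-- descent to the projective groups -/
theorem pr_descend {X Y : Type*} [Group X] [Group Y] (φ : X →* Y) (hφ : Function.Injective φ)
    (hc : ∀ x ∈ center X, φ x ∈ center Y) {p : ℕ} {A : Subgroup (Y ⧸ center Y)} (h : Pr p A) {s : X}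
    (hs : A = zpowers (QuotientGroup.mk' (center Y) (φ s))) : ∃ B : Subgroup (X ⧸ center X), Pr p B := by
  let f : X ⧸ center X →* Y ⧸ center Y := QuotientGroup.map (center X) (center Y) φ hc
  have hf : Function.Injective f := by
    rw [injective_iff_map_eq_one]
    intro x
    obtain ⟨x, rfl⟩ := QuotientGroup.mk_surjective x
    intro hx
    have h1 : φ x ∈ center Y := by
      have h2 : ((φ x : Y) : Y ⧸ center Y) = 1 := hx
      exact (QuotientGroup.eq_one_iff _).1 h2
    rw [QuotientGroup.eq_one_iff, mem_center_iff]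
    intro y
    apply hφ
    rw [map_mul, map_mul]
    exact mem_center_iff.1 h1 _
  refine ⟨A.comap f, Pr.of_injective hf ?_⟩
  have h1 : (A.comap f).map f = A := by
    rw [map_comap_eq, inf_eq_right, hs, zpowers_le]
    exact ⟨(s : X ⧸ center X), rfl⟩
  rwa [h1]

/-- a lift of order `p` of a generator -/
theorem exists_lift {Y : Type*} [Group Y] {p : ℕ} (hp : p.Prime) {A : Subgroup (Y ⧸ center Y)}
    (hA : Nat.card A = p) {n : ℕ} (hz : ∀ z ∈ center Y, z ^ n = 1) (hn : n.Coprime p) :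
    ∃ g : Y, g ^ p = 1 ∧ A = zpowers (QuotientGroup.mk' (center Y) g) := by
  have hpf := Fact.mk hp
  have hcy : IsCyclic A := isCyclic_of_prime_card hA
  obtain ⟨a, ha⟩ := hcy.exists_generator
  obtain ⟨g₀, hg₀⟩ := QuotientGroup.mk_surjective (a : Y ⧸ center Y)
  have hap : (a : Y ⧸ center Y) ^ p = 1 := by
    have := pow_card_eq_one' (x := a)
    rw [hA] at this
    exact congrArg Subtype.val this
  -- `k ≡ 0 mod n`, `k ≡ 1 mod p`
  obtain ⟨k, hk1, hk2⟩ := Nat.chineseRemainder hn 0 1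
  obtain ⟨j, rfl⟩ : n ∣ k := (Nat.modEq_zero_iff_dvd).1 hk1
  refine ⟨g₀ ^ (n * j), ?_, ?_⟩
  · have h1 : g₀ ^ p ∈ center Y := by
      rw [← QuotientGroup.eq_one_iff, QuotientGroup.mk_pow, hg₀]
      exact hap
    rw [← pow_mul, mul_comm, pow_mul, pow_mul, hz _ h1, one_pow]
  · have h2 : QuotientGroup.mk' (center Y) (g₀ ^ (n * j)) = (a : Y ⧸ center Y) := by
      rw [map_pow]
      show (g₀ : Y ⧸ center Y) ^ (n * j) = _
      rw [hg₀]
      have h3 : n * j ≡ 1 [MOD orderOf (a : Y ⧸ center Y)] :=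
        hk2.of_dvd (orderOf_dvd_of_pow_eq_one hap)
      calc (a : Y ⧸ center Y) ^ (n * j) = a ^ 1 := pow_eq_pow_iff_modEq.2 h3
        _ = _ := pow_one _
    rw [h2]
    ext x
    constructor
    · intro hx
      obtain ⟨i, hi⟩ := mem_zpowers_iff.1 (ha ⟨x, hx⟩)
      exact mem_zpowers_iff.2 ⟨i, by rw [← Subgroup.coe_zpow, hi]⟩
    · intro hx
      obtain ⟨i, rfl⟩ := mem_zpowers_iff.1 hx
      exact A.zpow_mem a.2 i

namespace SpX

open Cfsg.Agent.H107.SpTr (act act_def act_mul act_one act_inv_act act_act_inv form_act)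

variable {F : Type} [Field F] [Fintype F] {m : ℕ}

theorem exists_sub {p r : ℕ} (hp : p.Prime) (hp5 : 5 ≤ p) (hr : r.Prime) (hrp : r ≠ p) [CharP F r] (hm : 1 ≤ m)
    (hL : LocChar r (PSp m F)) {A : Subgroup (PSp m F)} (h : Pr p A) :
    ∃ (K : Type) (_ : Field K) (_ : Finite K) (B : Subgroup (Matrix.ProjectiveSpecialLinearGroup (Fin 2) K)),
      Pr p B ∧ Nat.card K = Fintype.card F ^ m ∧ ringChar K = r := by
  classical
  obtain ⟨g, hg, hA⟩ := exists_lift hp h.card (n := 2) (fun z hz => central_sq hm hz)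
    ((Nat.coprime_primes Nat.prime_two hp).2 (by omega))
  subst hA
  have hirr := irr hp hp5 hr hrp hm hL hg h
  obtain ⟨T, hT⟩ : ∃ T : Module.End F (Vm m F), T = Matrix.toLin' (g : Matrix _ _ F) := ⟨_, rfl⟩
  obtain ⟨S, hS⟩ : ∃ S : Module.End F (Vm m F), S = Matrix.toLin' ((g⁻¹ : Sp m F) : Matrix _ _ F) := ⟨_, rfl⟩
  have hTa : ∀ x, T x = act g x := fun x => by rw [hT, Matrix.toLin'_apply, act_def]
  have hSa : ∀ x, S x = act g⁻¹ x := fun x => by rw [hS, Matrix.toLin'_apply, act_def]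
  have hTS : T * S = 1 := by
    apply LinearMap.ext
    intro x
    rw [Module.End.mul_apply, hTa, hSa, act_act_inv, Module.End.one_apply]
  have hST : S * T = 1 := by
    apply LinearMap.ext
    intro x
    rw [Module.End.mul_apply, hTa, hSa, act_inv_act, Module.End.one_apply]
  have hb : ∀ x y, sympBilin m F (T x) (T y) = sympBilin m F x y := by
    intro x y
    rw [hTa, hTa, sympBilin_apply, sympBilin_apply, form_act]
  -- a nonzero vector
  obtain ⟨v, hv⟩ : ∃ v : Vm m F, v ≠ 0 :=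
    ⟨Pi.single (Sum.inl ⟨0, hm⟩) 1, fun h0 => by
      have := congrFun h0 (Sum.inl ⟨0, hm⟩)
      rw [Pi.single_eq_same] at this
      exact one_ne_zero this⟩
  have hTn : T ∉ Algebra.adjoin F {T + S} := by
    intro hmem
    apply hv
    apply sq_fix hp hp5 hr hrp hm hL hg h
    apply eq_of_forall_sympForm_left
    intro w
    have h1 := SubSL.selfadj hTS hb hmem w (T v)
    rw [hb, sympBilin_apply, sympBilin_apply, hTa, hTa] at h1
    exact h1.symm
  obtain ⟨K, iK, hfK, Ψ, hinj, ⟨M, hM1, hMT⟩, hcard, hchar, hscal, -, hform⟩ :=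
    SubSL.exists_hom hTS hST (fun W hW => hirr W fun w hw => by rw [← hTa]; exact hW w hw) hTn hv
  have hform' := hform (sympBilin m F) (fun x => by rw [sympBilin_apply, sympForm_self]) hb
  -- the homomorphism
  let φ : Matrix.SpecialLinearGroup (Fin 2) K →* Sp m F :=
    { toFun := fun s => ⟨LinearMap.toMatrix' (Ψ s.1), by
        rw [mem_symplecticGroup_iff]
        intro u v
        rw [LinearMap.toMatrix'_mulVec, LinearMap.toMatrix'_mulVec, ← sympBilin_apply, ← sympBilin_apply]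
        exact hform' s.1 s.2 u v⟩
      map_one' := by
        apply Subtype.ext
        show LinearMap.toMatrix' (Ψ (1 : Matrix (Fin 2) (Fin 2) K)) = 1
        rw [map_one, Module.End.one_eq_id, LinearMap.toMatrix'_id]
      map_mul' := fun s t => by
        apply Subtype.ext
        show LinearMap.toMatrix' (Ψ (s.1 * t.1)) = LinearMap.toMatrix' (Ψ s.1) * LinearMap.toMatrix' (Ψ t.1)
        rw [map_mul, LinearMap.toMatrix'_mul] }
  have hφ : Function.Injective φ := by
    intro s t hst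
    apply Subtype.ext
    apply hinj
    exact LinearMap.toMatrix'.injective (congrArg Subtype.val hst)
  obtain ⟨B, hB⟩ := pr_descend φ hφ (by
    intro x hx
    obtain ⟨c, hc, hcx⟩ := Matrix.SpecialLinearGroup.mem_center_iff.1 hx
    rw [Fintype.card_fin, sq] at hc
    have hx1 : x.1 = c • (1 : Matrix (Fin 2) (Fin 2) K) := by
      rw [← hcx, Matrix.scalar_apply, Matrix.smul_one_eq_diagonal]
    rw [Cfsg.Agent.LieClassical.SympCenter.mem_center_iff]
    rcases hscal c hc with h1 | h1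
    · refine ⟨1, ?_⟩
      show LinearMap.toMatrix' (Ψ x.1) = _
      rw [hx1, h1, Module.End.one_eq_id, LinearMap.toMatrix'_id, one_smul]
    · refine ⟨-1, ?_⟩
      show LinearMap.toMatrix' (Ψ x.1) = _
      rw [hx1, h1, map_neg, Module.End.one_eq_id, LinearMap.toMatrix'_id, neg_smul, one_smul]) h (s := ⟨M, hM1⟩) (by
    congr 2
    apply Subtype.ext
    show (g : Matrix _ _ F) = LinearMap.toMatrix' (Ψ M)
    rw [hMT, hT, LinearMap.toMatrix'_toLin'])
  refine ⟨K, iK, hfK, B, hB, ?_, by rw [hchar]; exact ringChar.eq F r ▸ rfl⟩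
  have h1 : Nat.card (Vm m F) = (Fintype.card F ^ m) ^ 2 := by
    rw [Nat.card_eq_fintype_card, Fintype.card_fun, Fintype.card_sum, Fintype.card_fin, ← pow_mul]
    congr 1
    ring
  rw [h1] at hcard
  exact (Nat.pow_left_injective (n := 2) (by norm_num) hcard).symm

end SpX

/-- **the row `PSp_{2m}(q)`, cross characteristic** -/
theorem row_pspCross_of {p : ℕ} (hp : p.Prime) (hp5 : 5 ≤ p) (hX : PSLTwoCross p) {K : Type*} [Group K] [Finite K]
    [IsSimpleGroup K] (r : ℕ) (hr : r ≠ p) (h : IsPSpChar r K) : Row p K := by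
  obtain ⟨F, i1, i2, i3, m, hm, hm2, ⟨e⟩⟩ := h
  have hrp : r.Prime := CharP.char_is_prime F r
  have : Fact r.Prime := ⟨hrp⟩
  apply Row.congr e.symm
  intro A hA
  exfalso
  have hlie : IsLieTypeChar r (PSp m F) := Or.inr (Or.inl ⟨F, i1, i2, i3, m, hm, hm2, ⟨MulEquiv.refl _⟩⟩)
  have hL : LocChar r (PSp m F) := Cfsg.Agent.H330.Gow.locChar_of_lie hlie
  obtain ⟨E, iE, hfE, B, hB, hcard, hchar⟩ := SpX.exists_sub hp hp5 hrp hr (by omega) hL hA
  have : Fintype E := Fintype.ofFinite E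
  have hq : 2 ≤ Fintype.card F := Fintype.one_lt_card
  rw [Nat.card_eq_fintype_card] at hcard
  have h4 : 4 ≤ Fintype.card E := by
    rw [hcard]
    calc 4 = 2 ^ 2 := by norm_num
      _ ≤ Fintype.card F ^ 2 := Nat.pow_le_pow_left hq 2
      _ ≤ Fintype.card F ^ m := Nat.pow_le_pow_right (by omega) hm
  have hpE : (p : E) ≠ 0 := by
    intro h0
    have h1 : ringChar E ∣ p := ringChar.dvd h0
    rw [hchar, Nat.prime_dvd_prime_iff_eq hrp hp] at h1
    exact hr h1
  obtain ⟨-, h5⟩ := hX E h4 hpE B hB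
  rw [hcard] at h5
  rcases Nat.lt_or_ge 2 m with h6 | h6
  · have : 2 ^ 3 ≤ Fintype.card F ^ m := (Nat.pow_le_pow_left hq 3).trans (Nat.pow_le_pow_right (by omega) h6)
    omega
  · have hm' : m = 2 := by omega
    have h7 := hm2 hm'
    rw [hm'] at h5
    nlinarith

theorem pslTwoCross {p : ℕ} (hp : p.Prime) (hp5 : 5 ≤ p) : PSLTwoCross p := fun _ _ _ hK hpK _ hA =>
  Cfsg.Agent.H103.Tor.PSLTwo.psl2_cross hp hp5 hpK hK hA

/-- **the row `PSp_{2m}(q)`, cross characteristic** -/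
theorem row_pspCross {p : ℕ} (hp : p.Prime) (hp5 : 5 ≤ p) {K : Type*} [Group K] [Finite K]
    [IsSimpleGroup K] (r : ℕ) (hr : r ≠ p) (h : IsPSpChar r K) : Row p K :=
  row_pspCross_of hp hp5 (pslTwoCross hp hp5) r hr h

end Cfsg.Agent.H451.Tor
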